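import Cfsg.Agent.H614.AMod.Main

/-!
# S3499, `A₁₁` is no self-dual core in dimension 8 (helper281, cell (iv) of helper1)
-/

set_option autoImplicit false

namespace Cfsg.Agent.H281.EP

open Cfsg Cfsg.Geo Cfsg.Agent.H915.LD

universe u

/-- `A_m`, `m ≥ 11`, is not the simple quotient of a core in dimension eight -/
theorem no_alt_eight {ι : Type} [Fintype ι] [DecidableEq ι] {F : Type u} [Field F] [Finite F] {P : Subgroup (GL ι F)}
    (hC : Core P) (p : ℕ) [hp : Fact p.Prime] [CharP F p] {m : ℕ} (hm : 11 ≤ m)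
    (e : Soc P ≃* alternatingGroup (Fin m)) (h8 : Fintype.card ι = 8) : False := by
  rcases H614.AMod.Main.alt_cases hC p e (by omega) (by omega) (by omega) with h | h | h
  · rcases h.dim hC (by omega) p with h1 | h1 <;> omega
  · have := h.m9
    omega
  · omega

/-- `A₁₁`, characteristic 11 -/
theorem no_a11_eight {ι : Type} [Fintype ι] [DecidableEq ι] {F : Type u} [Field F] [Finite F] [CharP F 11]
    {P : Subgroup (GL ι F)} (hC : Core P) (e : Soc P ≃* alternatingGroup (Fin 11)) (h8 : Fintype.card ι = 8) : False := by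
  have : Fact (Nat.Prime 11) := ⟨by norm_num⟩
  exact no_alt_eight hC 11 le_rfl e h8

end Cfsg.Agent.H281.EP
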