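import Cfsg.Agent.H419.EP.Soc
import Cfsg.Agent.H775.EP.ModelOmega
import Cfsg.Agent.H888.C6.PlusFin
import Cfsg.Agent.S0293

/-!
# S3499: the order of `Q` for a model of `Ω⁺₁₀(q)` (helper281, task 5985)
-/

set_option autoImplicit false

namespace Cfsg.Agent.H281.EP

open Cfsg.Agent.H419.EP
open scoped MatrixGroups

/-- Two groups with models over the same matrix group are isomorphic. -/
theorem model_equiv {Q Q' : Type*} [Group Q] [Group Q'] {ι : Type} [Fintype ι] [DecidableEq ι] {F : Type*} [Field F]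
    {S : Subgroup (GL ι F)} (m : Model Q S) (m' : Model Q' S) : Nonempty (Q ≃* Q') := by
  have hker : m.π.ker = m'.π.ker := by
    ext s
    rw [MonoidHom.mem_ker, MonoidHom.mem_ker, m.ker, m'.ker]
  exact ⟨((QuotientGroup.quotientKerEquivOfSurjective m.π m.surj).symm.trans
    (QuotientGroup.quotientMulEquivOfEq hker)).trans (QuotientGroup.quotientKerEquivOfSurjective m'.π m'.surj)⟩

theorem card_model {Q : Type*} [Group Q] {n : ℕ} {F : Type*} [Field F] [Finite F] {Qf : (Fin n → F) → F}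
    (hn : 5 ≤ n) (m : Model Q (Cfsg.Geo.omegaGL Qf)) (hQ : Cfsg.Geo.IsNondegenerateQuadraticForm Qf) :
    Nat.card Q = Nat.card (Cfsg.POmega F Qf) := by
  obtain ⟨e⟩ := model_equiv m (H775.EP.modelOmega hQ (by rw [Fintype.card_fin]; exact hn))
  exact Nat.card_congr e.toEquiv

/-- the order of a group with a model over `Ω⁺_{2k}(q)` -/
theorem card_plus {Q : Type*} [Group Q] {n k : ℕ} (hk : 4 ≤ k) (hn : n = 2 * k) {F : Type*} [Field F] [Fintype F]
    {Qf : (Fin n → F) → F} (m : Model Q (Cfsg.Geo.omegaGL Qf)) (hQ : Cfsg.Geo.IsNondegenerateQuadraticForm Qf)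
    (hplus : Cfsg.Geo.IsPlusTypeOn Qf ⊤) :
    Nat.gcd 4 (Fintype.card F ^ k - 1) * Nat.card Q = Fintype.card F ^ (k * (k - 1)) * (Fintype.card F ^ k - 1) *
      ∏ i ∈ Finset.range (k - 1), (Fintype.card F ^ (2 * (i + 1)) - 1) := by
  rw [card_model (by omega) m hQ, H888.C6.card_pomega_plus (by omega) hn hQ hplus]
  exact Cfsg.Agent.S0293.result rfl k hk

theorem pow_sub_ge {q k : ℕ} (hq : 2 ≤ q) (hk : 1 ≤ k) : q ^ k ≤ 2 * (q ^ k - 1) := by
  have : 2 ≤ q ^ k := hq.trans (Nat.le_self_pow (by omega) q)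
  omega

/-- crude lower bound for the order: `q⁴⁵ ≤ 128 |Q|` -/
theorem card_ten_ge {Q : Type*} [Group Q] {F : Type*} [Field F] [Fintype F]
    {Qf : (Fin 10 → F) → F} (m : Model Q (Cfsg.Geo.omegaGL Qf)) (hQ : Cfsg.Geo.IsNondegenerateQuadraticForm Qf)
    (hplus : Cfsg.Geo.IsPlusTypeOn Qf ⊤) : Fintype.card F ^ 45 ≤ 128 * Nat.card Q := by
  have h := card_plus (k := 5) (by norm_num) (by norm_num) m hQ hplus
  set q := Fintype.card F with hqd
  have hq : 2 ≤ q := Fintype.one_lt_card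
  have h4 : Nat.gcd 4 (q ^ 5 - 1) ≤ 4 := Nat.gcd_le_left _ (by norm_num)
  simp only [Finset.prod_range_succ, Finset.prod_range_zero, Nat.reduceSub, Nat.reduceMul, Nat.reduceAdd,
    one_mul, zero_add, mul_one] at h
  have e1 := pow_sub_ge hq (k := 5) (by norm_num)
  have e2 := pow_sub_ge hq (k := 2) (by norm_num)
  have e3 := pow_sub_ge hq (k := 4) (by norm_num)
  have e4 := pow_sub_ge hq (k := 6) (by norm_num)
  have e5 := pow_sub_ge hq (k := 8) (by norm_num)
  calc q ^ 45 = q ^ 20 * (q ^ 5) * ((q ^ 2) * (q ^ 4) * (q ^ 6) * (q ^ 8)) := by ring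
    _ ≤ q ^ 20 * (2 * (q ^ 5 - 1)) * ((2 * (q ^ 2 - 1)) * (2 * (q ^ 4 - 1)) * (2 * (q ^ 6 - 1)) * (2 * (q ^ 8 - 1))) := by
        gcongr
    _ = 32 * (q ^ 20 * (q ^ 5 - 1) * ((q ^ 2 - 1) * (q ^ 4 - 1) * (q ^ 6 - 1) * (q ^ 8 - 1))) := by ring
    _ = 32 * (Nat.gcd 4 (q ^ 5 - 1) * Nat.card Q) := by rw [h]
    _ ≤ 32 * (4 * Nat.card Q) := by gcongr
    _ = 128 * Nat.card Q := by ring

/-- `|PΩ⁺₁₀(3)|` -/
theorem card_ten_three {Q : Type*} [Group Q] {F : Type*} [Field F] [Fintype F]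
    {Qf : (Fin 10 → F) → F} (m : Model Q (Cfsg.Geo.omegaGL Qf)) (hQ : Cfsg.Geo.IsNondegenerateQuadraticForm Qf)
    (hplus : Cfsg.Geo.IsPlusTypeOn Qf ⊤) (h3 : Fintype.card F = 3) : Nat.card Q = 1289512799941305139200 := by
  have h := card_plus (k := 5) (by norm_num) (by norm_num) m hQ hplus
  rw [h3] at h
  simp only [Finset.prod_range_succ, Finset.prod_range_zero, Nat.reduceSub, Nat.reduceMul, Nat.reduceAdd,
    one_mul, zero_add, mul_one, Nat.reducePow] at h
  norm_num at h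
  omega

/-- `|PΩ⁺₁₀(5)|` -/
theorem card_ten_five {Q : Type*} [Group Q] {F : Type*} [Field F] [Fintype F]
    {Qf : (Fin 10 → F) → F} (m : Model Q (Cfsg.Geo.omegaGL Qf)) (hQ : Cfsg.Geo.IsNondegenerateQuadraticForm Qf)
    (hplus : Cfsg.Geo.IsPlusTypeOn Qf ⊤) (h5 : Fintype.card F = 5) : Nat.card Q = 6807663884896875000000000000000 := by
  have h := card_plus (k := 5) (by norm_num) (by norm_num) m hQ hplus
  rw [h5] at h
  simp only [Finset.prod_range_succ, Finset.prod_range_zero, Nat.reduceSub, Nat.reduceMul, Nat.reduceAdd,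
    one_mul, zero_add, mul_one, Nat.reducePow] at h
  norm_num at h
  omega

end Cfsg.Agent.H281.EP
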